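import Cfsg.Agent.Lib.Helper9.P8A

set_option autoImplicit false
open Cfsg

namespace Cfsg.Agent.Lib.Helper9.Leech

theorem dg8_eq (t i : ℕ) : dg8 t i = t / 8 ^ i % 8 := by
  change (t >>> (3 * i)) % 8 = _
  rw [Nat.shiftRight_eq_div_pow, pow_mul]
  norm_num

def f8 (x : Equiv.Perm (Fin 8)) (i : ℕ) : ℕ := (x ⟨i % 8, Nat.mod_lt _ (by norm_num)⟩).val

theorem f8_lt (x : Equiv.Perm (Fin 8)) (i : ℕ) : f8 x i < 8 := (x _).isLt

theorem f8_fin (x : Equiv.Perm (Fin 8)) (i : Fin 8) : f8 x i.val = (x i).val := by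
  unfold f8
  congr 2
  exact Fin.ext (Nat.mod_eq_of_lt i.isLt)

theorem f8_inj (x : Equiv.Perm (Fin 8)) (i j : ℕ) (hi : i < 8) (hj : j < 8)
    (h : f8 x i = f8 x j) : i = j := by
  have h1 := f8_fin x ⟨i, hi⟩
  have h2 := f8_fin x ⟨j, hj⟩
  have h3 : x ⟨i, hi⟩ = x ⟨j, hj⟩ := Fin.ext (by rw [← h1, ← h2]; exact h)
  have h4 := x.injective h3
  exact congrArg Fin.val h4

def tb8 (x : Equiv.Perm (Fin 8)) : ℕ := hornerL 8 ((List.range 8).map (f8 x))

theorem dg8_tb8 (x : Equiv.Perm (Fin 8)) (i : Fin 8) : dg8 (tb8 x) i.val = (x i).val := by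
  rw [dg8_eq, tb8, horner_digit 8 (by norm_num) _ _ i.val (by simp)]
  · rw [List.getD_eq_getElem?_getD, List.getElem?_map, List.getElem?_range i.isLt]
    exact f8_fin x i
  · intro c hc
    rw [List.mem_map] at hc
    obtain ⟨a, _, rfl⟩ := hc
    exact f8_lt x a

theorem hornerL_snoc (B : ℕ) (c : ℕ) : ∀ (l : List ℕ),
    hornerL B (l ++ [c]) = hornerL B l + c * B ^ l.length := by
  intro l
  induction l with
  | nil => simp [hornerL]
  | cons a r ih =>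
    change a + B * hornerL B (r ++ [c]) = a + B * hornerL B r + c * B ^ (r.length + 1)
    rw [ih]
    ring

theorem en8_sound (R : ℕ → Bool) (x : Equiv.Perm (Fin 8)) : ∀ (n k used acc : ℕ), k + n = 8 →
    en8 R n k used acc = true →
    (∀ a, tb used a = true → ∃ i < k, f8 x i = a) →
    acc = hornerL 8 ((List.range k).map (f8 x)) → R (tb8 x) = true := by
  intro n
  induction n with
  | zero =>
    intro k used acc hk h _ hacc
    have hk8 : k = 8 := by omega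
    subst hk8
    rw [hacc] at h
    exact h
  | succ n ih =>
    intro k used acc hk h hused hacc
    have hk8 : k < 8 := by omega
    have h1 := allBelow_spec _ 8 h (f8 x k) (f8_lt x k)
    have h2 : tb used (f8 x k) = true ∨ en8 R n (Nat.succ k) (Nat.lor used (Nat.pow 2 (f8 x k)))
          (Nat.add acc (Nat.mul (f8 x k) (Nat.pow 8 k))) = true := by
      rw [← Bool.or_eq_true]
      exact h1
    rcases h2 with h2 | h2
    · obtain ⟨i, hi, hix⟩ := hused _ h2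
      have := f8_inj x i k (by omega) hk8 hix
      omega
    · refine ih (k + 1) _ _ (by omega) h2 ?_ ?_
      · intro a ha
        rw [tb_eq] at ha
        have ha' : (used ||| 2 ^ (f8 x k)).testBit a = true := ha
        rw [Nat.testBit_or, Bool.or_eq_true] at ha'
        rcases ha' with ha' | ha'
        · rw [← tb_eq] at ha'
          obtain ⟨i, hi, hix⟩ := hused a ha'
          exact ⟨i, by omega, hix⟩
        · rw [Nat.testBit_two_pow] at ha'
          exact ⟨k, by omega, by simpa using ha'⟩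
      · rw [List.range_succ, List.map_append, List.map_singleton, hornerL_snoc, ← hacc]
        simp only [List.length_map, List.length_range]
        rfl

theorem beq_beq (p q r s : ℕ) : (Nat.beq p q == Nat.beq r s) = true ↔ (p = q ↔ r = s) := by
  rw [beq_iff_eq, Bool.eq_iff_iff, beq_iff, beq_iff]

theorem InP8_one : InP8 1 := fun _ _ => ⟨Iff.rfl, Iff.rfl⟩

theorem InP8_mul (a b : Equiv.Perm (Fin 8)) (ha : InP8 a) (hb : InP8 b) : InP8 (a * b) := by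
  intro i j
  exact ⟨(hb i j).1.trans (ha (b i) (b j)).1, (hb i j).2.trans (ha (b i) (b j)).2⟩

theorem InP8_inv (a : Equiv.Perm (Fin 8)) (ha : InP8 a) : InP8 a⁻¹ := by
  intro i j
  have h := ha (a⁻¹ i) (a⁻¹ j)
  have e : ∀ i, a (a⁻¹ i) = i := fun i => a.apply_symm_apply i
  rw [e, e] at h
  exact ⟨h.1.symm, h.2.symm⟩

def p8Sub : Subgroup (Equiv.Perm (Fin 8)) where
  carrier := {g | InP8 g}
  mul_mem' := fun {a b} ha hb => InP8_mul a b ha hb
  one_mem' := InP8_one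
  inv_mem' := fun {a} ha => InP8_inv a ha

theorem mem_p8Sub (g : Equiv.Perm (Fin 8)) : g ∈ p8Sub ↔ InP8 g := Iff.rfl

theorem inPT_of (x : Equiv.Perm (Fin 8)) (h : InP8 x) : inPT (tb8 x) = true := by
  refine allBelow_of _ 8 (fun a ha => allBelow_of _ a (fun b hb => ?_))
  have hb8 : b < 8 := by omega
  have h1 := h ⟨a, ha⟩ ⟨b, hb8⟩
  have ea := dg8_tb8 x ⟨a, ha⟩
  have eb := dg8_tb8 x ⟨b, hb8⟩
  change ((Nat.beq (dg8 (tb8 x) a / 2) (dg8 (tb8 x) b / 2) == Nat.beq (a / 2) (b / 2)) &&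
    (Nat.beq (dg8 (tb8 x) a / 4) (dg8 (tb8 x) b / 4) == Nat.beq (a / 4) (b / 4))) = true
  rw [Bool.and_eq_true, beq_beq, beq_beq]
  change dg8 (tb8 x) a = _ at ea
  change dg8 (tb8 x) b = _ at eb
  rw [ea, eb]
  exact ⟨h1.1.symm, h1.2.symm⟩

theorem p8_pow8 (g : Equiv.Perm (Fin 8)) (hg : InP8 g) : g ^ 8 = 1 := by
  have h1 := en8_sound r1T g 8 0 0 0 rfl p8_pow
    (fun a ha => by rw [tb_eq, Nat.zero_testBit] at ha; exact absurd ha (by simp)) rfl
  have h2 : (!(inPT (tb8 g)) || allBelow (fun i =>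
    Nat.beq (dg8 (tb8 g) (dg8 (tb8 g) (dg8 (tb8 g) (dg8 (tb8 g) (dg8 (tb8 g) (dg8 (tb8 g)
      (dg8 (tb8 g) (dg8 (tb8 g) i)))))))) i) 8) = true := h1
  rw [inPT_of g hg] at h2
  have h3 := allBelow_spec _ 8 (by simpa using h2)
  have e8 : g ^ 8 = g * g * g * g * g * g * g * g := by
    simp only [pow_succ, pow_zero, one_mul]
  rw [e8]
  ext i
  have h4 := (beq_iff _ _).1 (h3 i.val i.isLt)
  rw [dg8_tb8, dg8_tb8, dg8_tb8, dg8_tb8, dg8_tb8, dg8_tb8, dg8_tb8, dg8_tb8] at h4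
  simp only [Equiv.Perm.mul_apply, Equiv.Perm.one_apply]
  exact h4

theorem p8_pgroup : IsPGroup 2 ↥p8Sub := by
  intro g
  refine ⟨3, ?_⟩
  apply Subtype.ext
  rw [Subgroup.coe_pow, Subgroup.coe_one]
  exact p8_pow8 g.1 g.2

theorem ctT_sound (x h : Equiv.Perm (Fin 8)) (H : ℕ)
    (hH : ∀ i : Fin 8, (h i).val = dg8 H i.val) (hct : ctT (tb8 x) H = true) :
    InP8 (x * h * x⁻¹) := by
  have key : ∀ a b : ℕ, ∀ (ha : a < 8) (hb : b < a),
      (((x ⟨a, ha⟩).val / 2 = (x ⟨b, by omega⟩).val / 2 ↔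
        (x (h ⟨a, ha⟩)).val / 2 = (x (h ⟨b, by omega⟩)).val / 2) ∧
      ((x ⟨a, ha⟩).val / 4 = (x ⟨b, by omega⟩).val / 4 ↔
        (x (h ⟨a, ha⟩)).val / 4 = (x (h ⟨b, by omega⟩)).val / 4)) := by
    intro a b ha hb
    have hb8 : b < 8 := by omega
    have h1 := allBelow_spec _ a (allBelow_spec _ 8 hct a ha) b hb
    have h2 : ((Nat.beq (dg8 (tb8 x) a / 2) (dg8 (tb8 x) b / 2) ==
        Nat.beq (dg8 (tb8 x) (dg8 H a) / 2) (dg8 (tb8 x) (dg8 H b) / 2)) &&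
      (Nat.beq (dg8 (tb8 x) a / 4) (dg8 (tb8 x) b / 4) ==
        Nat.beq (dg8 (tb8 x) (dg8 H a) / 4) (dg8 (tb8 x) (dg8 H b) / 4))) = true := h1
    rw [Bool.and_eq_true, beq_beq, beq_beq] at h2
    have ea : dg8 (tb8 x) a = _ := dg8_tb8 x ⟨a, ha⟩
    have eb : dg8 (tb8 x) b = _ := dg8_tb8 x ⟨b, hb8⟩
    have eHa : _ = dg8 H a := hH ⟨a, ha⟩
    have eHb : _ = dg8 H b := hH ⟨b, hb8⟩
    rw [← eHa, ← eHb, dg8_tb8, dg8_tb8, ea, eb] at h2
    exact h2
  have key2 : ∀ a b : Fin 8,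
      (((x a).val / 2 = (x b).val / 2 ↔ (x (h a)).val / 2 = (x (h b)).val / 2) ∧
      ((x a).val / 4 = (x b).val / 4 ↔ (x (h a)).val / 4 = (x (h b)).val / 4)) := by
    intro a b
    rcases lt_trichotomy a.val b.val with hab | hab | hab
    · have := key b.val a.val b.isLt hab
      exact ⟨⟨fun e => (this.1.1 e.symm).symm, fun e => (this.1.2 e.symm).symm⟩,
        ⟨fun e => (this.2.1 e.symm).symm, fun e => (this.2.2 e.symm).symm⟩⟩
    · have : a = b := Fin.ext hab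
      subst this
      exact ⟨⟨fun _ => rfl, fun _ => rfl⟩, ⟨fun _ => rfl, fun _ => rfl⟩⟩
    · exact key a.val b.val a.isLt hab
  intro i j
  have h1 := key2 (x⁻¹ i) (x⁻¹ j)
  have e : ∀ i, x (x⁻¹ i) = i := fun i => x.apply_symm_apply i
  rw [e, e] at h1
  exact h1

theorem p8_hit_all (x : Equiv.Perm (Fin 8)) :
    ∃ h : Equiv.Perm (Fin 8), InP8 h ∧ h ≠ 1 ∧ InP8 (x * h * x⁻¹) := by
  obtain ⟨hp, hp0⟩ := p8Tr_ok (x 0)
  set p := p8Tr.getD (x 0).val 1 with hpdef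
  have hx0 : (p * x) 0 = 0 := hp0
  have hf0 : f8 (p * x) 0 = 0 := by
    have := f8_fin (p * x) 0
    rw [hx0] at this
    exact this
  have h1 := en8_sound hitT (p * x) 7 1 1 0 rfl p8_hit
    (fun a ha => by
      rw [tb_eq] at ha
      have ha' : (2 ^ 0).testBit a = true := ha
      rw [Nat.testBit_two_pow] at ha'
      exact ⟨0, by omega, by rw [hf0]; simpa using ha'⟩)
    (by
      change 0 = f8 (p * x) 0 + 8 * 0
      rw [hf0])
  obtain ⟨k, hk, hkc⟩ := (anyBelow_iff _ 15).1 h1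
  obtain ⟨hin, ⟨i, hi⟩, htb⟩ := p8S_ok ⟨k, hk⟩
  refine ⟨p8S.getD k 1, hin, ?_, ?_⟩
  · intro h1'
    apply hi
    change (p8S.getD k 1) i = i
    rw [h1']
    rfl
  · have h2 := ctT_sound (p * x) (p8S.getD k 1) (p8ST.getD k 0) htb hkc
    have h3 := InP8_mul _ _ (InP8_mul _ _ (InP8_inv p hp) h2) hp
    have e : p⁻¹ * (p * x * p8S.getD k 1 * (p * x)⁻¹) * p = x * p8S.getD k 1 * x⁻¹ := by group
    rw [e] at h3
    exact h3

theorem s5763 (H : Sylow 2 (Equiv.Perm (Fin 8))) (x : Equiv.Perm (Fin 8)) :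
    (H : Subgroup (Equiv.Perm (Fin 8))) ⊓
      (H : Subgroup (Equiv.Perm (Fin 8))).map (MulAut.conj x).toMonoidHom ≠ ⊥ := by
  have : Fact (Nat.Prime 2) := ⟨Nat.prime_two⟩
  obtain ⟨Q, hQ⟩ := p8_pgroup.exists_le_sylow
  obtain ⟨g, hg⟩ := MulAction.exists_smul_eq (Equiv.Perm (Fin 8)) Q H
  have hmem : ∀ y : Equiv.Perm (Fin 8), InP8 y → g * y * g⁻¹ ∈ (H : Subgroup _) := by
    intro y hy
    rw [← hg, Sylow.coe_subgroup_smul]
    exact (Subgroup.mem_pointwise_smul_iff_inv_smul_mem).2 (by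
      rw [MulAut.smul_def, MulAut.conj_inv_apply]
      have : g⁻¹ * (g * y * g⁻¹) * g = y := by group
      rw [this]
      exact hQ hy)
  obtain ⟨h, hh, hne, hc⟩ := p8_hit_all (g⁻¹ * x⁻¹ * g)
  intro hbot
  have hw : g * h * g⁻¹ ∈ (H : Subgroup (Equiv.Perm (Fin 8))) ⊓
        (H : Subgroup (Equiv.Perm (Fin 8))).map (MulAut.conj x).toMonoidHom := by
    refine Subgroup.mem_inf.2 ⟨hmem _ hh, Subgroup.mem_map.2
      ⟨g * (g⁻¹ * x⁻¹ * g * h * (g⁻¹ * x⁻¹ * g)⁻¹) * g⁻¹, hmem _ hc, ?_⟩⟩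
    change x * (g * (g⁻¹ * x⁻¹ * g * h * (g⁻¹ * x⁻¹ * g)⁻¹) * g⁻¹) * x⁻¹ = _
    group
  rw [hbot, Subgroup.mem_bot] at hw
  apply hne
  have e : h = g⁻¹ * (g * h * g⁻¹) * g := by group
  rw [e, hw]
  group

end Cfsg.Agent.Lib.Helper9.Leech
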