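import Cfsg.Agent.Lib.Helper9.P8Data

set_option autoImplicit false
open Cfsg

namespace Cfsg.Agent.Lib.Helper9.Leech

/-! ### permutations of eight points as packed tables, and a Sylow 2-subgroup -/

def dg8 (t i : ℕ) : ℕ := Nat.mod (Nat.shiftRight t (Nat.mul 3 i)) 8

def en8 (R : ℕ → Bool) : ℕ → ℕ → ℕ → ℕ → Bool
  | 0, _, _, acc => R acc
  | n + 1, k, used, acc =>
      allBelow (fun a => tb used a ||
        en8 R n (Nat.succ k) (Nat.lor used (Nat.pow 2 a))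
          (Nat.add acc (Nat.mul a (Nat.pow 8 k)))) 8

def inPT (t : ℕ) : Bool :=
  allBelow (fun a => allBelow (fun b =>
    (Nat.beq (Nat.div (dg8 t a) 2) (Nat.div (dg8 t b) 2) == Nat.beq (Nat.div a 2) (Nat.div b 2)) &&
    (Nat.beq (Nat.div (dg8 t a) 4) (Nat.div (dg8 t b) 4) ==
      Nat.beq (Nat.div a 4) (Nat.div b 4))) a) 8

def r1T (t : ℕ) : Bool :=
  !(inPT t) || allBelow (fun i =>
    Nat.beq (dg8 t (dg8 t (dg8 t (dg8 t (dg8 t (dg8 t (dg8 t (dg8 t i)))))))) i) 8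

def ctT (X H : ℕ) : Bool :=
  allBelow (fun a => allBelow (fun b =>
    (Nat.beq (Nat.div (dg8 X a) 2) (Nat.div (dg8 X b) 2) ==
      Nat.beq (Nat.div (dg8 X (dg8 H a)) 2) (Nat.div (dg8 X (dg8 H b)) 2)) &&
    (Nat.beq (Nat.div (dg8 X a) 4) (Nat.div (dg8 X b) 4) ==
      Nat.beq (Nat.div (dg8 X (dg8 H a)) 4) (Nat.div (dg8 X (dg8 H b)) 4))) a) 8

def hitT (X : ℕ) : Bool := anyBelow (fun k => ctT X (p8ST.getD k 0)) 15

theorem en8_split (R : ℕ → Bool) (n k used acc : ℕ)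
    (h : ∀ a < 8, (tb used a || en8 R n (Nat.succ k) (Nat.lor used (Nat.pow 2 a))
      (Nat.add acc (Nat.mul a (Nat.pow 8 k)))) = true) :
    en8 R (n + 1) k used acc = true := allBelow_of _ 8 h

set_option maxRecDepth 100000 in
theorem p8_pow0 : en8 r1T 7 (Nat.succ 0) (Nat.lor 0 (Nat.pow 2 0))
    (Nat.add 0 (Nat.mul 0 (Nat.pow 8 0))) = true := by decide +kernel

set_option maxRecDepth 100000 in
theorem p8_pow1 : en8 r1T 7 (Nat.succ 0) (Nat.lor 0 (Nat.pow 2 1))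
    (Nat.add 0 (Nat.mul 1 (Nat.pow 8 0))) = true := by decide +kernel

set_option maxRecDepth 100000 in
theorem p8_pow2 : en8 r1T 7 (Nat.succ 0) (Nat.lor 0 (Nat.pow 2 2))
    (Nat.add 0 (Nat.mul 2 (Nat.pow 8 0))) = true := by decide +kernel

set_option maxRecDepth 100000 in
theorem p8_pow3 : en8 r1T 7 (Nat.succ 0) (Nat.lor 0 (Nat.pow 2 3))
    (Nat.add 0 (Nat.mul 3 (Nat.pow 8 0))) = true := by decide +kernel

set_option maxRecDepth 100000 in
theorem p8_pow4 : en8 r1T 7 (Nat.succ 0) (Nat.lor 0 (Nat.pow 2 4))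
    (Nat.add 0 (Nat.mul 4 (Nat.pow 8 0))) = true := by decide +kernel

set_option maxRecDepth 100000 in
theorem p8_pow5 : en8 r1T 7 (Nat.succ 0) (Nat.lor 0 (Nat.pow 2 5))
    (Nat.add 0 (Nat.mul 5 (Nat.pow 8 0))) = true := by decide +kernel

set_option maxRecDepth 100000 in
theorem p8_pow6 : en8 r1T 7 (Nat.succ 0) (Nat.lor 0 (Nat.pow 2 6))
    (Nat.add 0 (Nat.mul 6 (Nat.pow 8 0))) = true := by decide +kernel

set_option maxRecDepth 100000 in
theorem p8_pow7 : en8 r1T 7 (Nat.succ 0) (Nat.lor 0 (Nat.pow 2 7))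
    (Nat.add 0 (Nat.mul 7 (Nat.pow 8 0))) = true := by decide +kernel

theorem p8_pow : en8 r1T 8 0 0 0 = true := by
  refine en8_split r1T 7 0 0 0 (fun a ha => ?_)
  interval_cases a
  · exact Bool.or_eq_true_iff.2 (Or.inr p8_pow0)
  · exact Bool.or_eq_true_iff.2 (Or.inr p8_pow1)
  · exact Bool.or_eq_true_iff.2 (Or.inr p8_pow2)
  · exact Bool.or_eq_true_iff.2 (Or.inr p8_pow3)
  · exact Bool.or_eq_true_iff.2 (Or.inr p8_pow4)
  · exact Bool.or_eq_true_iff.2 (Or.inr p8_pow5)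
  · exact Bool.or_eq_true_iff.2 (Or.inr p8_pow6)
  · exact Bool.or_eq_true_iff.2 (Or.inr p8_pow7)

set_option maxRecDepth 100000 in
theorem p8_hit1 : en8 hitT 6 (Nat.succ 1) (Nat.lor 1 (Nat.pow 2 1))
    (Nat.add 0 (Nat.mul 1 (Nat.pow 8 1))) = true := by decide +kernel

set_option maxRecDepth 100000 in
theorem p8_hit2 : en8 hitT 6 (Nat.succ 1) (Nat.lor 1 (Nat.pow 2 2))
    (Nat.add 0 (Nat.mul 2 (Nat.pow 8 1))) = true := by decide +kernel

set_option maxRecDepth 100000 in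
theorem p8_hit3 : en8 hitT 6 (Nat.succ 1) (Nat.lor 1 (Nat.pow 2 3))
    (Nat.add 0 (Nat.mul 3 (Nat.pow 8 1))) = true := by decide +kernel

set_option maxRecDepth 100000 in
theorem p8_hit4 : en8 hitT 6 (Nat.succ 1) (Nat.lor 1 (Nat.pow 2 4))
    (Nat.add 0 (Nat.mul 4 (Nat.pow 8 1))) = true := by decide +kernel

set_option maxRecDepth 100000 in
theorem p8_hit5 : en8 hitT 6 (Nat.succ 1) (Nat.lor 1 (Nat.pow 2 5))
    (Nat.add 0 (Nat.mul 5 (Nat.pow 8 1))) = true := by decide +kernel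

set_option maxRecDepth 100000 in
theorem p8_hit6 : en8 hitT 6 (Nat.succ 1) (Nat.lor 1 (Nat.pow 2 6))
    (Nat.add 0 (Nat.mul 6 (Nat.pow 8 1))) = true := by decide +kernel

set_option maxRecDepth 100000 in
theorem p8_hit7 : en8 hitT 6 (Nat.succ 1) (Nat.lor 1 (Nat.pow 2 7))
    (Nat.add 0 (Nat.mul 7 (Nat.pow 8 1))) = true := by decide +kernel

theorem p8_hit : en8 hitT 7 1 1 0 = true := by
  refine en8_split hitT 6 1 1 0 (fun a ha => ?_)
  interval_cases a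
  · exact Bool.or_eq_true_iff.2 (Or.inl rfl)
  · exact Bool.or_eq_true_iff.2 (Or.inr p8_hit1)
  · exact Bool.or_eq_true_iff.2 (Or.inr p8_hit2)
  · exact Bool.or_eq_true_iff.2 (Or.inr p8_hit3)
  · exact Bool.or_eq_true_iff.2 (Or.inr p8_hit4)
  · exact Bool.or_eq_true_iff.2 (Or.inr p8_hit5)
  · exact Bool.or_eq_true_iff.2 (Or.inr p8_hit6)
  · exact Bool.or_eq_true_iff.2 (Or.inr p8_hit7)

def InP8 (π : Equiv.Perm (Fin 8)) : Prop :=
  ∀ i j : Fin 8, (i.val / 2 = j.val / 2 ↔ (π i).val / 2 = (π j).val / 2) ∧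
    (i.val / 4 = j.val / 4 ↔ (π i).val / 4 = (π j).val / 4)

instance decInP8 : DecidablePred InP8 := fun π => by
  unfold InP8
  infer_instance

set_option maxRecDepth 100000 in
theorem p8S_ok : ∀ k : Fin 15, InP8 (p8S.getD k.val 1) ∧
    (∃ i : Fin 8, p8S.getD k.val 1 i ≠ i) ∧
    ∀ i : Fin 8, ((p8S.getD k.val 1) i).val = dg8 (p8ST.getD k.val 0) i.val := by
  decide +kernel

set_option maxRecDepth 100000 in
theorem p8Tr_ok : ∀ c : Fin 8, InP8 (p8Tr.getD c.val 1) ∧ p8Tr.getD c.val 1 c = 0 := by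
  decide +kernel

end Cfsg.Agent.Lib.Helper9.Leech
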