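import Cfsg.Agent.Lib.Helper9.Sx6

set_option autoImplicit false

namespace Cfsg.Agent.Lib.Helper9.Leech

def p8S : List (Equiv.Perm (Fin 8)) :=
  [Equiv.swap 0 7 * Equiv.swap 1 6 * Equiv.swap 2 5 * Equiv.swap 3 4,
   Equiv.swap 0 7 * Equiv.swap 1 6 * Equiv.swap 2 4 * Equiv.swap 3 5,
   Equiv.swap 0 6 * Equiv.swap 1 7 * Equiv.swap 2 5 * Equiv.swap 3 4,
   Equiv.swap 0 6 * Equiv.swap 1 7 * Equiv.swap 2 4 * Equiv.swap 3 5,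
   Equiv.swap 0 5 * Equiv.swap 1 4 * Equiv.swap 2 7 * Equiv.swap 3 6,
   Equiv.swap 0 5 * Equiv.swap 1 4 * Equiv.swap 2 6 * Equiv.swap 3 7,
   Equiv.swap 0 4 * Equiv.swap 1 5 * Equiv.swap 2 7 * Equiv.swap 3 6,
   Equiv.swap 0 4 * Equiv.swap 1 5 * Equiv.swap 2 6 * Equiv.swap 3 7,
   Equiv.swap 0 1,
   Equiv.swap 2 3,
   Equiv.swap 4 5,
   Equiv.swap 6 7,
   Equiv.swap 0 1 * Equiv.swap 2 3 * Equiv.swap 4 7 * Equiv.swap 5 6,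
   Equiv.swap 0 1 * Equiv.swap 2 3 * Equiv.swap 4 6 * Equiv.swap 5 7,
   Equiv.swap 0 1 * Equiv.swap 2 3 * Equiv.swap 4 5 * Equiv.swap 6 7]

def p8ST : List ℕ := [342391, 371511, 2177406, 2206526, 4988389, 6823845, 5017068, 6852524, 16434817, 16434376, 16406152, 14599816, 9925825, 11789505, 14570689]

def p8Tr : List (Equiv.Perm (Fin 8)) :=
  [1,
   Equiv.swap 0 1,
   Equiv.swap 0 2 * Equiv.swap 1 3,
   Equiv.swap 0 3 * Equiv.swap 1 2,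
   Equiv.swap 0 4 * Equiv.swap 1 5 * Equiv.swap 2 6 * Equiv.swap 3 7,
   Equiv.swap 0 5 * Equiv.swap 1 4 * Equiv.swap 2 6 * Equiv.swap 3 7,
   Equiv.swap 0 6 * Equiv.swap 1 7 * Equiv.swap 2 4 * Equiv.swap 3 5,
   Equiv.swap 0 7 * Equiv.swap 1 6 * Equiv.swap 2 4 * Equiv.swap 3 5]

end Cfsg.Agent.Lib.Helper9.Leech
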